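import Cfsg.Agent.H849.OZ.TFive
import Cfsg.Agent.H672.OZ.Sieve
import Cfsg.Agent.Characters.CCBasic

/-!
# S4842: the degree modulo a prime `p` with `|C(z)| = 3 p` (helper890, for the row `PSp₁₀(2)`)

* `card_orb_le_two` : `|K| = 3`: an orbit of the normalizer on the characters of `K` has at most two elements;
* `mod_of_three`    : `p ≥ 7`, `p ∥ |G|`, `|C(z)| = 3 p`, `x` `p`-regular: `χ(1) ≡ ± 1, ± 2 (mod p)`.
-/

set_option autoImplicit false
set_option linter.unusedSectionVars false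

namespace Cfsg.Agent.H890.OZ

open Cfsg Subgroup Finset
open Cfsg.Agent.Characters.Core
open Cfsg.Agent.SmallSimple.ThetaSetup Cfsg.Agent.SmallSimple.ThetaOrtho Cfsg.Agent.SmallSimple.ThetaCount
open Cfsg.Agent.SmallSimple.TheoremC Cfsg.Agent.SmallSimple.TheoremCCor
open Cfsg.Agent.H732.VZ (One)
open Cfsg.Agent.H849.OZ

universe u

section orb

variable {G : Type u} [Group G] [Finite G] {p : ℕ} [Fact p.Prime] {P : Sylow p G} {K : Subgroup G}

/-- The orbit of the trivial character. -/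
theorem card_orb_le_two (hK : IsComp p (P : Subgroup G) K) (h3 : Nat.card K = 3) (θ : IrrCharacter K) :
    (orb P K (θ : K → ℂ)).card ≤ 2 := by
  classical
  have : Finite (IrrCharacter K) := finite_irr
  have := Fintype.ofFinite (IrrCharacter K)
  have hF : Fact (Nat.Prime 3) := ⟨Nat.prime_three⟩
  have hcyc : IsCyclic K := isCyclic_of_prime_card h3
  have hc : ∀ a b : K, a * b = b * a := fun a b => (IsCyclic.isMulCommutative (α := K)).is_comm.comm a b
  have hcard : Fintype.card (IrrCharacter K) = 3 := by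
    rw [← Nat.card_eq_fintype_card, Characters.CCBasic.card_irr_of_comm hc, h3]
  by_contra hlt
  have h1 : orb P K (θ : K → ℂ) = univ := by
    apply Finset.eq_univ_of_card
    have h2 := Finset.card_le_univ (orb P K (θ : K → ℂ))
    omega
  -- the trivial character
  have h1irr : IsIrrCharacter K (1 : K → ℂ) := Cfsg.Agent.Characters.Core.isIrr_one
  have h2 : (⟨1, h1irr⟩ : IrrCharacter K) ∈ orb P K (θ : K → ℂ) := by rw [h1]; exact mem_univ _
  obtain ⟨n, hn, h3⟩ := mem_orb.1 h2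
  -- `θ` is trivial
  have h4 : (θ : K → ℂ) = 1 := by
    have h5 := congrArg (fun f : K → ℂ => tw f n⁻¹) h3
    change tw (tw (θ : K → ℂ) n) n⁻¹ = tw (1 : K → ℂ) n⁻¹ at h5
    rw [← tw_mul hK _ hn (inv_mem hn), mul_inv_cancel, tw_one, tw_one_char hK (inv_mem hn)] at h5
    exact h5
  have h6 : (orb P K (θ : K → ℂ)).card ≤ 1 := by
    rw [Finset.card_le_one]
    intro a ha b hb
    obtain ⟨m, hm, hma⟩ := mem_orb.1 ha
    obtain ⟨m', hm', hmb⟩ := mem_orb.1 hb
    rw [h4, tw_one_char hK hm] at hma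
    rw [h4, tw_one_char hK hm'] at hmb
    exact Subtype.ext (hma.symm.trans hmb)
  omega

end orb

variable {G : Type u} [Group G] [Finite G] [IsSimpleGroup G] {p : ℕ}

/-- **The degree modulo a prime `p ≥ 7`, `p ∥ |G|`, `|C(z)| = 3 p`**, `x` `p`-regular. -/
theorem mod_of_three (hp : p.Prime) (h7 : 7 ≤ p) (hsq : ¬ p ^ 2 ∣ Nat.card G) (hG : Nat.card G ≠ p) {z : G}
    (hz : orderOf z = p) (hC : Nat.card (centralizer ({z} : Set G)) = 3 * p)
    {χ : IrrCharacter G} {x : G} (h : One χ x) (hx : ¬ p ∣ orderOf x)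
    (h4 : 4 ≤ Nat.card (centralizer ({x} : Set G))) :
    ∃ ε m k : ℤ, (ε = 1 ∨ ε = -1) ∧ (m = 1 ∨ m = 2) ∧ (charDegree (χ : G → ℂ) : ℤ) = ε * m + p * k := by
  classical
  have hF : Fact p.Prime := ⟨hp⟩
  obtain ⟨P, hPz, hP⟩ := exists_sylow hp hsq hz
  obtain ⟨K, hK⟩ := exists_isComp P hP
  have hzP : z ∈ (P : Subgroup G) := by rw [hPz]; exact mem_zpowers z
  have hz1 : z ≠ 1 := by
    rintro rfl
    rw [orderOf_one] at hz
    exact hp.one_lt.ne hz
  have hd : p ∣ Nat.card G := hz ▸ _root_.orderOf_dvd_natCard z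
  have hw2 := normalizer_ne hd hG (P := P) rfl
  have hK3 : Nat.card K = 3 := by
    have h1 := H849.OZ.card_centralizer hK hP
    rw [← Blocks.CyclicOrtho.centralizer_eq P hP hzP hz1, hC] at h1
    have h2 := hp.pos
    nlinarith
  obtain ⟨θ, ε, hε, -, ⟨k, hk⟩, -⟩ := five hK hP h hx rfl (fun e t het ht he => arith h4 h7 hw2 het ht he)
  have hF3 : Fact (Nat.Prime 3) := ⟨Nat.prime_three⟩
  have hcyc : IsCyclic K := isCyclic_of_prime_card hK3
  have hc : ∀ a b : K, a * b = b * a := fun a b => (IsCyclic.isMulCommutative (α := K)).is_comm.comm a b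
  have h1 : ∀ θ' : IrrCharacter K, (θ' : K → ℂ) 1 = 1 := fun θ' => Characters.CCBasic.irr_apply_one_of_comm hc θ'.2
  have hm0 : 0 < (orb P K (θ : K → ℂ)).card := Finset.card_pos.2 ⟨θ, mem_orb.2 ⟨1, one_mem _, tw_one _⟩⟩
  have hm2 := card_orb_le_two hK hK3 θ
  rw [Finset.sum_congr rfl fun θ' _ => h1 θ', Finset.sum_const, nsmul_eq_mul, mul_one] at hk
  refine ⟨ε, ((orb P K (θ : K → ℂ)).card : ℤ), k, hε, by omega, ?_⟩
  have h8 := Cfsg.Agent.H686.CharKit.charDegree_irr χ
  rw [hk] at h8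
  exact_mod_cast h8

end Cfsg.Agent.H890.OZ
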