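import Cfsg.Agent.H890.OZ.SpTen
import Cfsg.Agent.H890.OZ.Three
import Cfsg.Agent.H348.OZ.RowSpEight

/-!
# One vanishing class: `PSp₁₀(2)` (helper890, S4842)

The sieve with T4 and the residues modulo 31 (isolated) and 17 (`C(e17) = 17 × S₃`) leaves the degrees 30720 and `2 ^ 20`;
T4 gives `c ≤ 7`.  `2 ^ 20`: a central element of a Sylow 2-subgroup gives `2 ^ 25 ≤ c`.  30720: the residue modulo 11 is
8, but `|C(e11)| = 33` allows only `± 1, ± 2`.
-/

set_option autoImplicit false
set_option maxRecDepth 100000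

open Cfsg Cfsg.Agent.Characters Cfsg.Agent.H732.VZ Cfsg.Agent.H604.OZ

namespace Cfsg.Agent.H890.OZ

open SpT

universe u

/-- **`Sp₁₀(2)`.** -/
theorem row_sp10 [IsSimpleGroup Sp10] : H730.OZ.Row Sp10 := by
  have hN := card_sp
  have hna : ¬ IsMulCommutative Sp10 := fun h => by
    have h1 : ea * eb = eb * ea := h.is_comm.comm ea eb
    exact absurd h1 (by decide +kernel)
  refine row_of fun χ x ho => ?_
  have h4 : 4 ≤ cent x := four_le_cent ho (by rw [hN]; norm_num) (by rw [hN]; norm_num)
  -- the residue modulo 17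
  have hx17 : ¬ 17 ∣ orderOf x := by
    rcases Nat.lt_or_ge 17 (cent x) with h1 | h1
    · exact H733.OZ.not_dvd_orderOf ho (r := 17) (n := 1) (by norm_num) (by rw [hN]; norm_num) (by rw [hN]; norm_num)
        (by rw [pow_one]; exact h1)
    · exact H849.OZ.not_dvd_of_le (by norm_num) (by rw [hN]; norm_num) order17 (by rw [cent17]; norm_num) h1
  have h17 := H849.OZ.mod_of_classes (p := 17) (by norm_num) (by norm_num) (by rw [hN]; norm_num)
    (by rw [hN]; norm_num) order17 cls17 ho hx17 h4
  have hiso : ∀ r ∈ [17, 31], charDegree (χ : Sp10 → ℂ) % r = 0 ∨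
      charDegree (χ : Sp10 → ℂ) % r = 1 ∨ charDegree (χ : Sp10 → ℂ) % r = r - 1 := by
    intro r hr
    simp only [List.mem_cons, List.not_mem_nil, or_false] at hr
    rcases hr with rfl | rfl
    · exact Or.inr h17
    · exact H672.OZ.iso_mod_of ho (by norm_num) (by norm_num) (by rw [hN]; norm_num) (by rw [hN]; norm_num) order31
        cent31 h4
  have hm := H672.OZ.mem_of_sieve4 ho hN (l := [(2,25),(3,6),(5,2),(7,1),(11,1),(17,1),(31,1)]) (by decide +kernel)
    (by
      intro x hx
      simp only [List.mem_cons, List.not_mem_nil, or_false] at hx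
      rcases hx with rfl | rfl | rfl | rfl | rfl | rfl | rfl <;> norm_num)
    (by decide +kernel) h4 hiso (D := [30720, 1048576]) (by decide +kernel)
  set d := charDegree (χ : Sp10 → ℂ) with hd
  have hd2 : d = 30720 ∨ d = 1048576 := by simpa only [List.mem_cons, List.not_mem_nil, or_false] using hm
  -- `c ≤ 7`
  have hc : cent x ≤ 7 := by
    have := H672.OZ.cent_le_of ho hN (r := 7) (n := 1) (d := d) (by norm_num) hd.symm (by norm_num) (by norm_num)
      (by rcases hd2 with h | h <;> rw [h] <;> norm_num)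
    omega
  rcases hd2 with hd2 | hd2
  · -- the residue modulo 11
    have hx11 : ¬ 11 ∣ orderOf x :=
      H849.OZ.not_dvd_of_le (by norm_num) (by rw [hN]; norm_num) order11 (by rw [cent11]; norm_num)
        (show cent x ≤ 11 by omega)
    obtain ⟨ε, m, k, hε, hm, h⟩ := mod_of_three (p := 11) (by norm_num) (by norm_num) (by rw [hN]; norm_num)
      (by rw [hN]; norm_num) order11 cent11 ho hx11 h4
    rw [← hd, hd2] at h
    rcases hε with rfl | rfl <;> rcases hm with rfl | rfl <;> push_cast at h <;> omega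
  · have h7 := H348.OZ.le_cent_of_prime_pow hna ho Nat.prime_two (n := 25) (a := 20) (by norm_num)
      (by rw [hN]; norm_num) (by rw [hN]; norm_num) (by rw [← hd, hd2]; norm_num)
    norm_num at h7
    omega

/-- **`PSp₁₀(2)`.** -/
theorem row_psp10_two {S : Type u} [Group S] [Finite S] (hs : IsSimpleGroup S) {F : Type*} [Field F] [Fintype F]
    (hF : Fintype.card F = 2) (h : Nonempty (S ≃* PSp 5 F)) : H730.OZ.Row S := by
  obtain ⟨e⟩ := h
  have e' : S ≃* Sp10 := e.trans (equiv hF)
  have : Nontrivial Sp10 := e'.symm.toEquiv.nontrivial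
  have : IsSimpleGroup Sp10 := IsSimpleGroup.isSimpleGroup_of_surjective e'.toMonoidHom e'.surjective
  exact H730.OZ.Row.congr e' row_sp10

end Cfsg.Agent.H890.OZ
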