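import Cfsg.Agent.SporadicA.PermTab
import Cfsg.Agent.LieClassical.FieldTransfer
import Cfsg.Agent.S0245
import Cfsg.Agent.S0246
import Cfsg.Agent.H733.OZ.Six

/-!
# `Sp₁₀(2)`: elements of order 31, 11, 17 and their centralizers (helper890, for the row `PSp₁₀(2)` of S4842)

Vectors of `F₂¹⁰` are coded by natural numbers below 1024, matrices by the list of the codes of their rows; `par` is the
parity of the number of the bits (a table).  `mulVec_dec`, `mul_tr` : products by codes; `chk` : the forms `J Y ^ i`.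

* `card_sp` : `|Sp₁₀(2)|`;  `equiv` : `PSp₁₀(F) ≃* Sp₁₀(2)`, `|F| = 2`;
* `cent31` : `|C(e31)| ≤ 31`;  `cent11` : `|C(e11)| = 33`;  `cent17` : `|C(e17)| = 102`;
* `cls17` : elements of the same order prime to 17 of `C(e17)` are conjugate in `C(e17)`.
-/

set_option autoImplicit false
set_option maxRecDepth 100000

namespace Cfsg.Agent.H890.OZ.SpT

open Matrix Cfsg.Agent.SporadicA.PermTab

/-- the index set -/
abbrev I10 : Type := Fin 5 ⊕ Fin 5

/-- index -/
def ix : I10 → ℕ
  | .inl i => i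
  | .inr i => 5 + i

theorem ix_lt (i : I10) : ix i < 10 := by
  rcases i with i | i <;> simp [ix] <;> omega

theorem ix_surj {k : ℕ} (hk : k < 10) : ∃ i : I10, ix i = k := by
  rcases Nat.lt_or_ge k 5 with h | h
  · exact ⟨.inl ⟨k, h⟩, rfl⟩
  · exact ⟨.inr ⟨k - 5, by omega⟩, by simp [ix]; omega⟩

/-- evaluate the argument before going on -/
def force {α : Type} (n : ℕ) (k : ℕ → α) : α :=
  Nat.rec (motive := fun _ => α) (k 0) (fun m _ => k (Nat.succ m)) n

theorem force_eq {α : Type} (n : ℕ) (k : ℕ → α) : force n k = k n := by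
  cases n <;> rfl

/-- the table of the parities -/
def T10 : ℕ := 0x6996966996696996966969966996966996696996699696696996966996696996966969966996966969969669966969966996966996696996966969966996966996696996699696696996966996696996699696699669699696696996699696696996966996696996966969966996966996696996699696696996966996696996

/-- the parity of the number of the bits of `x < 1024` -/
def par (x : ℕ) : Bool := T10.testBit x

/-- a Boolean as an element of `F₂` -/
def bz (b : Bool) : ZMod 2 := cond b 1 0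

theorem bz_inj : Function.Injective bz := by decide

theorem bz_and (a b : Bool) : bz (a && b) = bz a * bz b := by cases a <;> cases b <;> rfl

theorem par_zero : par 0 = false := by decide +kernel

theorem par_spec {x : ℕ} (hx : x < 1024) : bz (par x) = ∑ i : I10, bz (x.testBit (ix i)) := by
  have h : allB (fun x => decide (bz (par x) = ∑ i : I10, bz (x.testBit (ix i)))) 1024 = true := by decide +kernel
  exact of_decide_eq_true ((allB_iff _ _).1 h x hx)

/-- a vector from its code -/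
def dec (a : ℕ) : I10 → ZMod 2 := fun i => bz (a.testBit (ix i))

theorem dot_dec {a : ℕ} (ha : a < 1024) (b : ℕ) : dec a ⬝ᵥ dec b = bz (par (a &&& b)) := by
  rw [par_spec (lt_of_le_of_lt Nat.and_le_left ha)]
  simp only [dotProduct, dec, Nat.testBit_and, bz_and]

/-- a matrix (list of rows) times a vector, codes -/
def mv : List ℕ → ℕ → ℕ
  | [], _ => 0
  | r :: l, a => Nat.add (cond (par (Nat.land r a)) 1 0) (Nat.mul 2 (mv l a))

theorem mv_cons (r : ℕ) (l : List ℕ) (a : ℕ) : mv (r :: l) a = cond (par (r &&& a)) 1 0 + 2 * mv l a := rfl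

theorem mv_lt (l : List ℕ) (a : ℕ) : mv l a < 2 ^ l.length := by
  induction l with
  | nil => simp [mv]
  | cons r l ih =>
    rw [mv_cons, List.length_cons, pow_succ]
    cases par (r &&& a) <;> simp <;> omega

theorem testBit_mv (l : List ℕ) (a k : ℕ) : (mv l a).testBit k = par (l.getD k 0 &&& a) := by
  induction l generalizing k with
  | nil => simp [mv, par_zero]
  | cons r l ih =>
    rw [mv_cons]
    cases k with
    | zero =>
      rw [Nat.testBit_zero]
      simp only [List.getD_cons_zero]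
      cases par (r &&& a) <;> simp
    | succ k =>
      rw [Nat.testBit_succ, List.getD_cons_succ, ← ih]
      congr 1
      cases par (r &&& a) <;> simp <;> omega

/-- a matrix from its rows -/
def sm (l : List ℕ) : Matrix I10 I10 (ZMod 2) :=
  Matrix.of fun i j => bz ((l.getD (ix i) 0).testBit (ix j))

theorem sm_row (l : List ℕ) (i : I10) : sm l i = dec (l.getD (ix i) 0) := rfl

theorem mulVec_dec (l : List ℕ) {a : ℕ} (ha : a < 1024) : sm l *ᵥ dec a = dec (mv l a) := by
  ext i
  change dec (l.getD (ix i) 0) ⬝ᵥ dec a = bz ((mv l a).testBit (ix i))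
  rw [dotProduct_comm, dot_dec ha, testBit_mv, Nat.land_comm]

/-- ten rows with codes below 1024 -/
def wf (l : List ℕ) : Bool := Nat.beq l.length 10 && l.all fun a => Nat.blt a 1024

theorem wf_iff {l : List ℕ} : wf l = true ↔ l.length = 10 ∧ ∀ a ∈ l, a < 1024 := by
  rw [wf, Bool.and_eq_true, List.all_eq_true]
  constructor
  · rintro ⟨h1, h2⟩
    exact ⟨Nat.eq_of_beq_eq_true h1, fun a ha => by simpa using h2 a ha⟩
  · rintro ⟨h1, h2⟩
    exact ⟨by rw [h1]; rfl, fun a ha => by simpa using h2 a ha⟩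

theorem wf_getD {l : List ℕ} (h : wf l = true) (k : ℕ) : l.getD k 0 < 1024 := by
  rw [wf_iff] at h
  rcases Nat.lt_or_ge k l.length with hk | hk
  · rw [List.getD_eq_getElem _ _ hk]
    exact h.2 _ (List.getElem_mem hk)
  · rw [List.getD_eq_default _ _ hk]
    norm_num

/-- `mv` of a list, evaluated -/
def mapF (f : ℕ → ℕ) : List ℕ → List ℕ
  | [] => []
  | a :: l => force (f a) fun b => b :: mapF f l

theorem mapF_eq (f : ℕ → ℕ) (l : List ℕ) : mapF f l = l.map f := by
  induction l with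
  | nil => rfl
  | cons a l ih => rw [mapF, force_eq, ih, List.map_cons]

theorem wf_mapF {A B : List ℕ} (hA : wf A = true) (hB : wf B = true) : wf (mapF (mv B) A) = true := by
  rw [mapF_eq, wf_iff, List.length_map]
  refine ⟨(wf_iff.1 hA).1, fun a ha => ?_⟩
  rw [List.mem_map] at ha
  obtain ⟨b, -, rfl⟩ := ha
  have := mv_lt B b
  rw [(wf_iff.1 hB).1] at this
  exact this

/-- **The product by codes.** -/
theorem mul_tr {A B : List ℕ} (hA : wf A = true) (hB : wf B = true) : sm A * (sm B)ᵀ = sm (mapF (mv B) A) := by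
  ext i j
  rw [mapF_eq]
  change dec (A.getD (ix i) 0) ⬝ᵥ dec (B.getD (ix j) 0) = bz (((A.map (mv B)).getD (ix i) 0).testBit (ix j))
  have hi : ix i < A.length := by rw [(wf_iff.1 hA).1]; exact ix_lt i
  have h1 : (A.map (mv B)).getD (ix i) 0 = mv B (A.getD (ix i) 0) := by
    rw [List.getD_eq_getElem _ _ (by rw [List.length_map]; exact hi), List.getElem_map, List.getD_eq_getElem _ _ hi]
  rw [h1, dotProduct_comm, dot_dec (wf_getD hB _), testBit_mv]

/-- the identity -/
def Il : List ℕ := [1, 2, 4, 8, 16, 32, 64, 128, 256, 512]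

theorem sm_Il : sm Il = 1 := by decide +kernel

/-- the matrix `J` -/
def Jl : List ℕ := [32, 64, 128, 256, 512, 1, 2, 4, 8, 16]

theorem sm_Jl : sm Jl = J (Fin 5) (ZMod 2) := by decide +kernel

theorem sm_Jl' : (sm Jl)ᵀ = J (Fin 5) (ZMod 2) := by decide +kernel

theorem wf_Il : wf Il = true := by decide +kernel
theorem wf_Jl : wf Jl = true := by decide +kernel

/-- `Sp₁₀(2)` -/
abbrev Sp10 : Type := symplecticGroup (Fin 5) (ZMod 2)

/-- equality of lists -/
def beqL : List ℕ → List ℕ → Bool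
  | [], [] => true
  | a :: l, b :: m => band (Nat.beq a b) (beqL l m)
  | _, _ => false

theorem eq_of_beqL : ∀ {l m : List ℕ}, beqL l m = true → l = m
  | [], [], _ => rfl
  | [], _ :: _, h => by simp [beqL] at h
  | _ :: _, [], h => by simp [beqL] at h
  | a :: l, b :: m, h => by
    rw [beqL, band_eq_true] at h
    rw [Nat.eq_of_beq_eq_true h.1, eq_of_beqL h.2]

/-- the list is the list of the rows of a symplectic matrix -/
def isS (l : List ℕ) : Bool := wf l && beqL (mapF (mv l) (mapF (mv Jl) l)) Jl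

/-- an element of `Sp₁₀(2)` -/
def se (l : List ℕ) (h : isS l = true) : Sp10 :=
  ⟨sm l, SymplecticGroup.mem_iff.mpr (by
    rw [isS, Bool.and_eq_true] at h
    rw [← sm_Jl', mul_tr h.1 wf_Jl, mul_tr (wf_mapF h.1 wf_Jl) h.1, eq_of_beqL h.2, sm_Jl']
    exact sm_Jl)⟩

theorem se_val (l : List ℕ) (h : isS l = true) : (se l h).1 = sm l := rfl

/-- the powers -/
def iter (lt : List ℕ) (k : ℕ) : List ℕ := Nat.rec Il (fun _ A => mapF (mv lt) A) k

theorem iter_succ (lt : List ℕ) (k : ℕ) : iter lt (k + 1) = mapF (mv lt) (iter lt k) := rfl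

theorem wf_iter {lt : List ℕ} (h : wf lt = true) (k : ℕ) : wf (iter lt k) = true := by
  induction k with
  | zero => exact wf_Il
  | succ k ih => rw [iter_succ]; exact wf_mapF ih h

theorem pow_val {g : Sp10} {lt : List ℕ} (hg : g.1 = (sm lt)ᵀ) (h : wf lt = true) (k : ℕ) :
    (g ^ k).1 = sm (iter lt k) := by
  induction k with
  | zero => rw [pow_zero]; exact sm_Il.symm
  | succ k ih =>
    rw [pow_succ, iter_succ, ← mul_tr (wf_iter h k) h, ← ih, ← hg]
    rfl

theorem pow_eq_one {g : Sp10} {lt : List ℕ} (hg : g.1 = (sm lt)ᵀ) (h : wf lt = true) {k : ℕ}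
    (hk : beqL (iter lt k) Il = true) : g ^ k = 1 := by
  apply Subtype.ext
  rw [pow_val hg h, eq_of_beqL hk]
  exact sm_Il

/-! ### Codes of vectors -/

theorem dec_inj {a b : ℕ} (ha : a < 1024) (hb : b < 1024) (h : dec a = dec b) : a = b := by
  apply Nat.eq_of_testBit_eq
  intro k
  rcases Nat.lt_or_ge k 10 with hk | hk
  · obtain ⟨i, hi⟩ := ix_surj hk
    have h1 := congrFun h i
    simp only [dec, hi] at h1
    exact bz_inj h1
  · have h1 : ∀ c : ℕ, c < 1024 → c.testBit k = false := fun c hc => by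
      apply Nat.testBit_lt_two_pow
      exact lt_of_lt_of_le hc (Nat.pow_le_pow_right (n := 2) (by norm_num) hk : 2 ^ 10 ≤ 2 ^ k)
    rw [h1 a ha, h1 b hb]

theorem dec_surj (v : I10 → ZMod 2) : ∃ a : ℕ, a < 1024 ∧ dec a = v := by
  have h := (Fintype.bijective_iff_injective_and_card fun a : Fin 1024 => dec a).2
    ⟨fun a b h => Fin.ext (dec_inj a.2 b.2 h), by
      rw [Fintype.card_fun, ZMod.card, Fintype.card_sum, Fintype.card_fin, Fintype.card_fin]
      norm_num⟩
  obtain ⟨a, ha⟩ := h.2 v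
  exact ⟨a, a.2, ha⟩

/-- the code of a vector -/
noncomputable def cod (v : I10 → ZMod 2) : ℕ := (dec_surj v).choose

theorem cod_lt (v : I10 → ZMod 2) : cod v < 1024 := (dec_surj v).choose_spec.1
theorem dec_cod (v : I10 → ZMod 2) : dec (cod v) = v := (dec_surj v).choose_spec.2

/-! ### Centralizers -/

/-- equality of Booleans -/
def beqB (a b : Bool) : Bool := cond a b (cond b false true)

/-- the values `B(a, Yⁱ b)` are `cs i` -/
def chk (Yl : List ℕ) : List Bool → ℕ → ℕ → Bool
  | [], _, _ => true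
  | c :: cs, a, b => band (beqB (par (Nat.land a (mv Jl b))) c) (force (mv Yl b) fun b' => chk Yl cs a b')

theorem chk_eq {Y : Sp10} {Yl : List ℕ} (hY : Y.1 = sm Yl) (hw : wf Yl = true) {g : Sp10} (hg : g * Y = Y * g) :
    ∀ (cs : List Bool) {a b a' b' : ℕ}, a < 1024 → b < 1024 → b' < 1024 → a' < 1024 →
      dec a = g.1 *ᵥ dec a' → dec b = g.1 *ᵥ dec b' → chk Yl cs a b = chk Yl cs a' b'
  | [], _, _, _, _, _, _, _, _, _, _ => rfl
  | c :: cs, a, b, a', b', ha, hb, hb', ha', h1, h2 => by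
    rw [chk, chk, force_eq, force_eq]
    have hl : ∀ d : ℕ, mv Yl d < 1024 := fun d => by
      have := mv_lt Yl d
      rwa [(wf_iff.1 hw).1] at this
    have h3 : par (a &&& mv Jl b) = par (a' &&& mv Jl b') := by
      apply bz_inj
      rw [← dot_dec ha, ← dot_dec ha', ← mulVec_dec _ hb, ← mulVec_dec _ hb', sm_Jl, h1, h2,
        Matrix.dotProduct_mulVec, Matrix.vecMul_mulVec, ← Matrix.dotProduct_mulVec, Matrix.mulVec_mulVec,
        SymplecticGroup.mem_iff'.1 g.2]
    have h4 : dec (mv Yl b) = g.1 *ᵥ dec (mv Yl b') := by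
      have h5 : g.1 * Y.1 = Y.1 * g.1 := congrArg Subtype.val hg
      rw [← mulVec_dec _ hb, ← mulVec_dec _ hb', h2, Matrix.mulVec_mulVec, Matrix.mulVec_mulVec, ← hY, h5]
    rw [chk_eq hY hw hg cs ha (hl _) (hl _) ha' h1 h4]
    change band (beqB (par (a &&& mv Jl b)) c) _ = band (beqB (par (a' &&& mv Jl b')) c) _
    rw [h3]

theorem ext_kc {kc K' : List ℕ} (hk : wf kc = true) (hK' : wf K' = true) (hK : beqL (mapF (mv kc) K') Il = true)
    {g h : Sp10} (hgh : ∀ j < 10, g.1 *ᵥ dec (kc.getD j 0) = h.1 *ᵥ dec (kc.getD j 0)) : g = h := by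
  have h1 : sm K' * (sm kc)ᵀ = 1 := by rw [mul_tr hK' hk, eq_of_beqL hK, sm_Il]
  have h2 : (sm kc)ᵀ * sm K' = 1 := mul_eq_one_comm.1 h1
  have h3 : g.1 * (sm kc)ᵀ = h.1 * (sm kc)ᵀ := by
    ext i j
    exact congrFun (hgh (ix j) (ix_lt j)) i
  apply Subtype.ext
  rw [← Matrix.mul_one g.1, ← h2, ← Matrix.mul_assoc, h3, Matrix.mul_assoc, h2, Matrix.mul_one]

/-- a chain `k, Y k, Y² k, …` of length `m` -/
def chain (Yl kc : List ℕ) (m : ℕ) : Bool := allB (fun j => Nat.beq (mv Yl (kc.getD j 0)) (kc.getD (j + 1) 0)) m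

theorem chain_agree {Y : Sp10} {Yl kc : List ℕ} (hY : Y.1 = sm Yl) (hk : wf kc = true) {m : ℕ}
    (hc : chain Yl kc m = true) {g h : Sp10} (hg : g * Y = Y * g) (hh : h * Y = Y * h)
    (h0 : g.1 *ᵥ dec (kc.getD 0 0) = h.1 *ᵥ dec (kc.getD 0 0)) :
    ∀ j ≤ m, g.1 *ᵥ dec (kc.getD j 0) = h.1 *ᵥ dec (kc.getD j 0) := by
  intro j
  induction j with
  | zero => exact fun _ => h0
  | succ j ih =>
    intro hj
    have h1 := Nat.eq_of_beq_eq_true ((allB_iff _ _).1 hc j (by omega))
    have h2 := ih (by omega)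
    have h3 : g.1 * Y.1 = Y.1 * g.1 := congrArg Subtype.val hg
    have h4 : h.1 * Y.1 = Y.1 * h.1 := congrArg Subtype.val hh
    rw [← h1, ← mulVec_dec _ (wf_getD hk j), ← hY, Matrix.mulVec_mulVec, Matrix.mulVec_mulVec, h3, h4,
      ← Matrix.mulVec_mulVec, ← Matrix.mulVec_mulVec, h2]

/-- **The centralizer of a cyclic element.** -/
theorem card_cent_le {Y : Sp10} {Yl kc K' : List ℕ} {cs : List Bool} {m : ℕ} (hY : Y.1 = sm Yl) (hw : wf Yl = true)
    (hk : wf kc = true) (hK' : wf K' = true) (hK : beqL (mapF (mv kc) K') Il = true) (hc : chain Yl kc 9 = true)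
    (h0 : chk Yl cs (kc.getD 0 0) (mv Yl (kc.getD 0 0)) = true)
    (ht : cntB (fun a => force (mv Yl a) fun b => chk Yl cs a b) 1024 m = true) :
    Nat.card (Subgroup.centralizer ({Y} : Set Sp10)) ≤ m := by
  classical
  have hcm : ∀ g : Subgroup.centralizer ({Y} : Set Sp10), g.1 * Y = Y * g.1 := fun g =>
    Subgroup.mem_centralizer_singleton_iff.1 g.2
  have hl : ∀ d : ℕ, mv Yl d < 1024 := fun d => by
    have := mv_lt Yl d
    rwa [(wf_iff.1 hw).1] at this
  set k0 := kc.getD 0 0 with hk0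
  have hk0l : k0 < 1024 := wf_getD hk 0
  let f : Subgroup.centralizer ({Y} : Set Sp10) → ℕ := fun g => cod (g.1.1 *ᵥ dec k0)
  have hfd : ∀ g, dec (f g) = g.1.1 *ᵥ dec k0 := fun g => dec_cod _
  have hfl : ∀ g, f g < 1024 := fun g => cod_lt _
  have hmem : ∀ g, f g ∈ (Finset.range 1024).filter fun a => (force (mv Yl a) fun b => chk Yl cs a b) = true := by
    intro g
    rw [Finset.mem_filter, Finset.mem_range, force_eq]
    refine ⟨hfl g, ?_⟩
    rw [← h0]
    refine chk_eq hY hw (hcm g) cs (hfl g) (hl _) (hl _) hk0l (hfd g) ?_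
    have h3 : g.1.1 * Y.1 = Y.1 * g.1.1 := congrArg Subtype.val (hcm g)
    rw [← mulVec_dec _ (hfl g), ← mulVec_dec _ hk0l, hfd, ← hY, Matrix.mulVec_mulVec, Matrix.mulVec_mulVec, h3]
  have hinj : Function.Injective f := by
    intro g h hgh
    have h1 : g.1.1 *ᵥ dec k0 = h.1.1 *ᵥ dec k0 := by rw [← hfd g, ← hfd h, hgh]
    have h2 := chain_agree hY hk hc (hcm g) (hcm h) h1
    exact Subtype.ext (ext_kc hk hK' hK fun j hj => h2 j (by omega))
  rw [← card_of_cntB _ 1024 m ht, ← Nat.card_eq_finsetCard]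
  exact Nat.card_le_card_of_injective (fun g => (⟨f g, hmem g⟩ : {a // a ∈ _})) fun g h e =>
    hinj (congrArg (fun z => (z : {a // a ∈ (Finset.range 1024).filter fun a =>
      (force (mv Yl a) fun b => chk Yl cs a b) = true}).1) e)

/-! ### The group -/

theorem card_sp : Nat.card Sp10 = 24815256521932800 := by
  rw [Cfsg.Agent.S0245.result (F := ZMod 2) (q := 2) (ZMod.card 2) 5]
  decide +kernel

theorem center_bot : Subgroup.center Sp10 = ⊥ := by
  have h := Cfsg.Agent.S0246.result (F := ZMod 2) (q := 2) (ZMod.card 2) 5 (by norm_num)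
  exact Subgroup.card_eq_one.1 h

/-- `PSp₁₀(F) ≃* Sp₁₀(2)`, `|F| = 2` -/
noncomputable def equiv {F : Type*} [Field F] [Fintype F] (hF : Fintype.card F = 2) : Cfsg.PSp 5 F ≃* Sp10 :=
  (LieClassical.FieldTransfer.pspCongr 5 (ZMod.ringEquivOfPrime F Nat.prime_two hF).symm).trans
    ((QuotientGroup.quotientMulEquivOfEq center_bot).trans QuotientGroup.quotientBot)

/-! ### The elements of order 31 and 11 -/

/-- rows and columns of `e31` -/
def l31 : List ℕ := [16, 1, 18, 4, 8, 576, 32, 64, 128, 256]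
def t31 : List ℕ := [2, 4, 8, 16, 5, 64, 160, 256, 512, 32]
/-- order 31 -/
def e31 : Sp10 := se l31 (by decide +kernel)

theorem e31_t : e31.1 = (sm t31)ᵀ := by
  change sm l31 = (sm t31)ᵀ
  decide +kernel

theorem e31_pow : e31 ^ 31 = 1 := pow_eq_one e31_t (by decide +kernel) (by decide +kernel)

theorem e31_ne : e31 ≠ 1 := by decide +kernel

theorem order31 : orderOf e31 = 31 := by
  have : Fact (Nat.Prime 31) := ⟨by norm_num⟩
  exact orderOf_eq_prime e31_pow e31_ne

theorem cent31 : Nat.card (Subgroup.centralizer ({e31} : Set Sp10)) ≤ 31 :=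
  card_cent_le (Y := e31) (Yl := l31) (kc := [33, 66, 164, 328, 688, 357, 746, 468, 941, 890])
    (K' := [793, 691, 767, 615, 111, 966, 813, 483, 222, 412]) (cs := [false, true, false, true, false])
    rfl (by decide +kernel) (by decide +kernel) (by decide +kernel) (by decide +kernel) (by decide +kernel)
    (by decide +kernel) (by decide +kernel)

/-- rows and columns of `e33` -/
def l33 : List ℕ := [449, 924, 110, 936, 360, 551, 498, 221, 907, 98]
def t33 : List ℕ := [417, 868, 166, 414, 194, 636, 725, 459, 347, 298]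
/-- order 33 -/
def e33 : Sp10 := se l33 (by decide +kernel)

theorem e33_t : e33.1 = (sm t33)ᵀ := by
  change sm l33 = (sm t33)ᵀ
  decide +kernel

/-- rows of `e11` -/
def l11 : List ℕ := [403, 522, 687, 517, 635, 335, 236, 400, 140, 923]

/-- order 11 -/
def e11 : Sp10 := e33 ^ 3

theorem e11_val : e11.1 = sm l11 := by
  rw [e11, pow_val e33_t (by decide +kernel), eq_of_beqL (l := iter t33 3) (m := l11) (by decide +kernel)]

theorem e33_pow : e33 ^ 33 = 1 := pow_eq_one e33_t (by decide +kernel) (by decide +kernel)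

theorem e11_pow : e11 ^ 11 = 1 := by rw [e11, ← pow_mul, e33_pow]

theorem e11_ne : e11 ≠ 1 := by
  intro h
  have h1 : sm l11 = 1 := by rw [← e11_val, h]; rfl
  revert h1
  decide +kernel

theorem e3_ne : e33 ^ 11 ≠ 1 := by
  intro h
  have h1 : sm (iter t33 11) = 1 := by rw [← pow_val e33_t (by decide +kernel), h]; rfl
  revert h1
  decide +kernel

theorem order11 : orderOf e11 = 11 := by
  have : Fact (Nat.Prime 11) := ⟨by norm_num⟩
  exact orderOf_eq_prime e11_pow e11_ne

theorem order33 : orderOf e33 = 33 := by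
  have h1 : orderOf e33 ∣ 33 := orderOf_dvd_of_pow_eq_one e33_pow
  have h2 : ¬ orderOf e33 ∣ 11 := fun h => e3_ne (orderOf_dvd_iff_pow_eq_one.1 h)
  have h3 : ¬ orderOf e33 ∣ 3 := fun h => e11_ne (orderOf_dvd_iff_pow_eq_one.1 h)
  have h4 : orderOf e33 ≤ 33 := Nat.le_of_dvd (by norm_num) h1
  generalize orderOf e33 = n at h1 h2 h3 h4
  interval_cases n <;> revert h1 h2 h3 <;> decide

theorem cent11_le : Nat.card (Subgroup.centralizer ({e11} : Set Sp10)) ≤ 33 :=
  card_cent_le (Y := e11) (Yl := l11) (kc := [1, 573, 252, 874, 474, 708, 199, 723, 816, 634])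
    (K' := [549, 412, 558, 296, 890, 620, 474, 610, 850, 488]) (cs := [true, true, true, false, false])
    e11_val (by decide +kernel) (by decide +kernel) (by decide +kernel) (by decide +kernel) (by decide +kernel)
    (by decide +kernel) (by decide +kernel)

theorem cent11 : Nat.card (Subgroup.centralizer ({e11} : Set Sp10)) = 3 * 11 := by
  refine le_antisymm cent11_le ?_
  have h1 : Subgroup.zpowers e33 ≤ Subgroup.centralizer ({e11} : Set Sp10) := by
    rw [Subgroup.zpowers_le, Subgroup.mem_centralizer_singleton_iff, e11, ← pow_succ, ← pow_succ']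
  have h3 := Subgroup.card_le_of_le h1
  rw [Nat.card_zpowers, order33] at h3
  exact h3

/-! ### The element of order 17 -/

/-- rows and columns of `e17` -/
def l17 : List ℕ := [367, 4, 72, 69, 16, 5, 232, 324, 271, 512]
def t17 : List ℕ := [297, 257, 427, 325, 16, 65, 205, 64, 385, 512]
/-- order 17 -/
def e17 : Sp10 := se l17 (by decide +kernel)
/-- order 2 -/
def ea : Sp10 := se [1, 2, 4, 8, 512, 32, 64, 128, 256, 16] (by decide +kernel)
/-- order 3 -/
def eb : Sp10 := se [1, 2, 4, 8, 512, 32, 64, 128, 256, 528] (by decide +kernel)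

theorem wf17 : wf l17 = true := by decide +kernel

theorem e17_t : e17.1 = (sm t17)ᵀ := by
  change sm l17 = (sm t17)ᵀ
  decide +kernel

theorem e17_pow : e17 ^ 17 = 1 := pow_eq_one e17_t (by decide +kernel) (by decide +kernel)

theorem e17_ne : e17 ≠ 1 := by decide +kernel

theorem order17 : orderOf e17 = 17 := by
  have : Fact (Nat.Prime 17) := ⟨by norm_num⟩
  exact orderOf_eq_prime e17_pow e17_ne

theorem ea_sq : ea * ea = 1 := by decide +kernel
theorem ea_ne : ea ≠ 1 := by decide +kernel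
theorem eb_cube : eb * eb * eb = 1 := by decide +kernel
theorem eb_ne : eb ≠ 1 := by decide +kernel
theorem ea_comm : ea * e17 = e17 * ea := by decide +kernel
theorem eb_comm : eb * e17 = e17 * eb := by decide +kernel
theorem ea_eb : ea * eb = eb * eb * ea := by decide +kernel

theorem order_ea : orderOf ea = 2 := by
  have : Fact (Nat.Prime 2) := ⟨Nat.prime_two⟩
  exact orderOf_eq_prime (by rw [pow_two]; exact ea_sq) ea_ne

theorem order_eb : orderOf eb = 3 := by
  have : Fact (Nat.Prime 3) := ⟨Nat.prime_three⟩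
  exact orderOf_eq_prime (by rw [pow_succ, pow_two]; exact eb_cube) eb_ne

/-- the possible images of the first vector -/
def tst17 (a : ℕ) : Bool := band (Nat.beq (Nat.land a 528) 0)
  (force (mv l17 a) fun b => chk l17 [true, true, true, true] a b)

theorem fix17 {a : ℕ} (ha : a < 1024) (h : mv l17 a = a) : a = 0 ∨ a = 16 ∨ a = 512 ∨ a = 528 := by
  have h1 : allB (fun a => !(Nat.beq (mv l17 a) a) || (Nat.beq a 0 || (Nat.beq a 16 || (Nat.beq a 512 ||
    Nat.beq a 528)))) 1024 = true := by decide +kernel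
  have h2 := (allB_iff _ _).1 h1 a ha
  rw [h] at h2
  simp only [Nat.beq_refl, Bool.not_true, Bool.false_or, Bool.or_eq_true] at h2
  rcases h2 with h2 | h2 | h2 | h2
  · exact Or.inl (Nat.eq_of_beq_eq_true h2)
  · exact Or.inr (Or.inl (Nat.eq_of_beq_eq_true h2))
  · exact Or.inr (Or.inr (Or.inl (Nat.eq_of_beq_eq_true h2)))
  · exact Or.inr (Or.inr (Or.inr (Nat.eq_of_beq_eq_true h2)))

theorem mv17_lt (d : ℕ) : mv l17 d < 1024 := mv_lt l17 d

/-- the coordinates 4 and 9 are fixed by `e17` -/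
theorem row17 (v : I10 → ZMod 2) : (e17.1 *ᵥ v) (.inl 4) = v (.inl 4) ∧ (e17.1 *ᵥ v) (.inr 4) = v (.inr 4) := by
  have h1 : ∀ i : I10, (sm l17 (.inl 4)) i = if i = .inl 4 then 1 else 0 := by decide +kernel
  have h2 : ∀ i : I10, (sm l17 (.inr 4)) i = if i = .inr 4 then 1 else 0 := by decide +kernel
  constructor
  · change sm l17 (.inl 4) ⬝ᵥ v = _
    rw [show sm l17 (.inl 4) = fun i => if i = .inl 4 then 1 else 0 from funext h1]
    simp [dotProduct]
  · change sm l17 (.inr 4) ⬝ᵥ v = _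
    rw [show sm l17 (.inr 4) = fun i => if i = .inr 4 then 1 else 0 from funext h2]
    simp [dotProduct]

theorem land_zero {a : ℕ} (h1 : dec a (.inl 4) = 0) (h2 : dec a (.inr 4) = 0) : a &&& 528 = 0 := by
  have e1 : a.testBit 4 = false := by
    change bz (a.testBit 4) = 0 at h1
    revert h1
    cases a.testBit 4 <;> simp [bz]
  have e2 : a.testBit 9 = false := by
    change bz (a.testBit 9) = 0 at h2
    revert h2
    cases a.testBit 9 <;> simp [bz]
  apply Nat.eq_of_testBit_eq
  intro k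
  rw [Nat.testBit_and, Nat.zero_testBit]
  by_cases hk4 : k = 4
  · rw [hk4, e1, Bool.false_and]
  by_cases hk9 : k = 9
  · rw [hk9, e2, Bool.false_and]
  have h3 : (528 : ℕ).testBit k = false := by
    rcases Nat.lt_or_ge k 10 with hk | hk
    · interval_cases k <;> first | decide | omega
    · apply Nat.testBit_lt_two_pow
      exact lt_of_lt_of_le (by norm_num) (Nat.pow_le_pow_right (n := 2) (by norm_num) hk : 2 ^ 10 ≤ 2 ^ k)
  rw [h3, Bool.and_false]

theorem cent17_le : Nat.card (Subgroup.centralizer ({e17} : Set Sp10)) ≤ 102 := by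
  classical
  set C := Subgroup.centralizer ({e17} : Set Sp10) with hC
  have hcm : ∀ g : C, g.1 * e17 = e17 * g.1 := fun g => Subgroup.mem_centralizer_singleton_iff.1 g.2
  have hcv : ∀ g : C, g.1.1 * e17.1 = e17.1 * g.1.1 := fun g => congrArg Subtype.val (hcm g)
  have hkc : wf [1, 297, 428, 366, 226, 461, 203, 480, 16, 512] = true := by decide +kernel
  have hK' : wf [201, 386, 168, 104, 484, 196, 398, 134, 16, 512] = true := by decide +kernel
  have hK : beqL (mapF (mv [1, 297, 428, 366, 226, 461, 203, 480, 16, 512])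
    [201, 386, 168, 104, 484, 196, 398, 134, 16, 512]) Il = true := by decide +kernel
  have hch : chain l17 [1, 297, 428, 366, 226, 461, 203, 480, 16, 512] 7 = true := by decide +kernel
  let f : C → ℕ × (ℕ × ℕ) := fun g => (cod (g.1.1 *ᵥ dec 1), (cod (g.1.1 *ᵥ dec 16), cod (g.1.1 *ᵥ dec 512)))
  let A : Finset ℕ := (Finset.range 1024).filter fun a => tst17 a = true
  let B : Finset (ℕ × ℕ) := {(16, 512), (16, 528), (512, 16), (512, 528), (528, 16), (528, 512)}
  have hA : A.card = 17 := card_of_cntB _ _ _ (by decide +kernel)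
  have hB : B.card = 6 := by decide +kernel
  -- the images of the fixed vectors
  have hfix : ∀ (g : C) (b : ℕ), b < 1024 → b ≠ 0 → mv l17 b = b →
      cod (g.1.1 *ᵥ dec b) = 16 ∨ cod (g.1.1 *ᵥ dec b) = 512 ∨ cod (g.1.1 *ᵥ dec b) = 528 := by
    intro g b hb hb0 hbf
    have h1 : mv l17 (cod (g.1.1 *ᵥ dec b)) = cod (g.1.1 *ᵥ dec b) := by
      refine dec_inj (mv17_lt _) (cod_lt _) ?_
      rw [← mulVec_dec _ (cod_lt _), dec_cod, show sm l17 = e17.1 from rfl, Matrix.mulVec_mulVec, ← hcv,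
        ← Matrix.mulVec_mulVec, show e17.1 = sm l17 from rfl, mulVec_dec _ hb, hbf]
    rcases fix17 (cod_lt _) h1 with h2 | h2
    · exfalso
      have h3 : g.1.1 *ᵥ dec b = g.1.1 *ᵥ dec 0 := by
        have h4 : dec (0 : ℕ) = 0 := by
          funext i
          simp [dec, bz]
        rw [← dec_cod (g.1.1 *ᵥ dec b), h2, h4, Matrix.mulVec_zero]
      have h5 : (g⁻¹ : C).1.1 * g.1.1 = 1 := congrArg (fun z : C => z.1.1) (inv_mul_cancel g)
      have h6 := congrArg (fun v => (g⁻¹ : C).1.1 *ᵥ v) h3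
      simp only [Matrix.mulVec_mulVec] at h6
      rw [h5, Matrix.one_mulVec, Matrix.one_mulVec] at h6
      exact hb0 (dec_inj hb (by norm_num) h6)
    · exact h2
  have hne : ∀ g : C, cod (g.1.1 *ᵥ dec 16) ≠ cod (g.1.1 *ᵥ dec 512) := by
    intro g h
    have h3 : g.1.1 *ᵥ dec 16 = g.1.1 *ᵥ dec 512 := by
      rw [← dec_cod (g.1.1 *ᵥ dec 16), h, dec_cod]
    have h5 : (g⁻¹ : C).1.1 * g.1.1 = 1 := congrArg (fun z : C => z.1.1) (inv_mul_cancel g)
    have h6 := congrArg (fun v => (g⁻¹ : C).1.1 *ᵥ v) h3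
    simp only [Matrix.mulVec_mulVec] at h6
    rw [h5, Matrix.one_mulVec, Matrix.one_mulVec] at h6
    have := dec_inj (by norm_num) (by norm_num) h6
    omega
  have hmem : ∀ g, f g ∈ A ×ˢ B := by
    intro g
    rw [Finset.mem_product]
    constructor
    · change cod (g.1.1 *ᵥ dec 1) ∈ A
      rw [Finset.mem_filter, Finset.mem_range, tst17, band_eq_true, force_eq]
      refine ⟨cod_lt _, ?_, ?_⟩
      · -- the coordinates 4 and 9
        have h1 : dec 1 = e17.1 *ᵥ dec 486 + dec 486 := by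
          rw [show e17.1 = sm l17 from rfl, mulVec_dec _ (by norm_num)]
          decide +kernel
        have h2 : g.1.1 *ᵥ dec 1 = e17.1 *ᵥ (g.1.1 *ᵥ dec 486) + g.1.1 *ᵥ dec 486 := by
          rw [h1, Matrix.mulVec_add, Matrix.mulVec_mulVec, hcv, ← Matrix.mulVec_mulVec]
        have h3 := row17 (g.1.1 *ᵥ dec 486)
        have h4 : ∀ a : ZMod 2, a + a = 0 := by decide
        have h5 : cod (g.1.1 *ᵥ dec 1) &&& 528 = 0 := by
          apply land_zero
          · rw [dec_cod, h2, Pi.add_apply, h3.1, h4]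
          · rw [dec_cod, h2, Pi.add_apply, h3.2, h4]
        change Nat.beq (cod (g.1.1 *ᵥ dec 1) &&& 528) 0 = true
        rw [h5]
        rfl
      · rw [show true = chk l17 [true, true, true, true] 1 (mv l17 1) by decide +kernel]
        refine chk_eq (Y := e17) rfl wf17 (hcm g) _ (cod_lt _) (mv17_lt _) (mv17_lt _) (by norm_num) (dec_cod _) ?_
        rw [← mulVec_dec _ (cod_lt _), ← mulVec_dec _ (by norm_num), dec_cod, show sm l17 = e17.1 from rfl,
          Matrix.mulVec_mulVec, Matrix.mulVec_mulVec, hcv]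
    · change (cod (g.1.1 *ᵥ dec 16), cod (g.1.1 *ᵥ dec 512)) ∈ B
      have h1 := hne g
      rcases hfix g 16 (by norm_num) (by norm_num) (by decide +kernel) with h2 | h2 | h2 <;>
        rcases hfix g 512 (by norm_num) (by norm_num) (by decide +kernel) with h3 | h3 | h3 <;>
        rw [h2, h3] at h1 ⊢ <;> first | exact absurd rfl h1 | decide
  have hinj : Function.Injective f := by
    intro g h hgh
    have e0 : g.1.1 *ᵥ dec 1 = h.1.1 *ᵥ dec 1 := by
      rw [← dec_cod (g.1.1 *ᵥ dec 1), ← dec_cod (h.1.1 *ᵥ dec 1)]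
      exact congrArg dec (congrArg Prod.fst hgh)
    have e1 : g.1.1 *ᵥ dec 16 = h.1.1 *ᵥ dec 16 := by
      rw [← dec_cod (g.1.1 *ᵥ dec 16), ← dec_cod (h.1.1 *ᵥ dec 16)]
      exact congrArg dec (congrArg (fun z => z.2.1) hgh)
    have e2 : g.1.1 *ᵥ dec 512 = h.1.1 *ᵥ dec 512 := by
      rw [← dec_cod (g.1.1 *ᵥ dec 512), ← dec_cod (h.1.1 *ᵥ dec 512)]
      exact congrArg dec (congrArg (fun z => z.2.2) hgh)
    have h2 := chain_agree (Y := e17) rfl hkc hch (hcm g) (hcm h) e0
    refine Subtype.ext (ext_kc hkc hK' hK fun j hj => ?_)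
    rcases Nat.lt_or_ge j 8 with h3 | h3
    · exact h2 j (by omega)
    · have h4 : j = 8 ∨ j = 9 := by omega
      rcases h4 with rfl | rfl
      · exact e1
      · exact e2
  have h1 : Nat.card C ≤ (A ×ˢ B).card := by
    rw [← Nat.card_eq_finsetCard]
    exact Nat.card_le_card_of_injective (fun g => (⟨f g, hmem g⟩ : {a // a ∈ A ×ˢ B})) fun g h e =>
      hinj (congrArg (fun z : {a // a ∈ A ×ˢ B} => z.1) e)
  rw [Finset.card_product, hA, hB] at h1
  exact h1

theorem mem17 : e17 ∈ Subgroup.centralizer ({e17} : Set Sp10) := Subgroup.mem_centralizer_singleton_iff.2 rfl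
theorem mem_a : ea ∈ Subgroup.centralizer ({e17} : Set Sp10) := Subgroup.mem_centralizer_singleton_iff.2 ea_comm
theorem mem_b : eb ∈ Subgroup.centralizer ({e17} : Set Sp10) := Subgroup.mem_centralizer_singleton_iff.2 eb_comm

theorem cent17 : Nat.card (Subgroup.centralizer ({e17} : Set Sp10)) = 102 := by
  have h17 := Subgroup.orderOf_dvd_natCard _ mem17
  have h2 := Subgroup.orderOf_dvd_natCard _ mem_a
  have h3 := Subgroup.orderOf_dvd_natCard _ mem_b
  rw [order17] at h17
  rw [order_ea] at h2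
  rw [order_eb] at h3
  have h4 := cent17_le
  have h5 : 0 < Nat.card (Subgroup.centralizer ({e17} : Set Sp10)) := Nat.card_pos
  omega

/-- **Elements of the same order prime to 17 of `C(e17)` are conjugate in `C(e17)`.** -/
theorem cls17 (y y' : Sp10) (hy : e17 * y = y * e17) (hy' : e17 * y' = y' * e17) (hyr : ¬ 17 ∣ orderOf y)
    (hyy : orderOf y = orderOf y') : ∃ k : Sp10, e17 * k = k * e17 ∧ k * y * k⁻¹ = y' := by
  set C := Subgroup.centralizer ({e17} : Set Sp10) with hC
  let zc : C := ⟨e17, mem17⟩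
  have hz : ∀ g : C, g * zc = zc * g := fun g => Subtype.ext (Subgroup.mem_centralizer_singleton_iff.1 g.2)
  have hN : (Subgroup.zpowers zc).Normal := ⟨fun n hn g => by
    obtain ⟨i, hi⟩ := hn
    change zc ^ i = n at hi
    have h1 : g * n = n * g := by
      rw [← hi]
      exact ((show Commute g zc from hz g).zpow_right i)
    rw [h1, mul_inv_cancel_right, ← hi]
    exact ⟨i, rfl⟩⟩
  have hzo : orderOf zc = 17 := by
    rw [← Subgroup.orderOf_coe]
    exact order17
  have h6 : Nat.card (C ⧸ Subgroup.zpowers zc) = 6 := by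
    have h1 := (Subgroup.zpowers zc).card_mul_index
    rw [Nat.card_zpowers, hzo, cent17] at h1
    change (Subgroup.zpowers zc).index = 6
    omega
  let a : C := ⟨ea, mem_a⟩
  let b : C := ⟨eb, mem_b⟩
  have hab : a * b = b * b * a := Subtype.ext ea_eb
  have hb3 : b * b * b = 1 := Subtype.ext eb_cube
  have hb1 : b ≠ 1 := fun h => eb_ne (congrArg Subtype.val h)
  have hne : ∃ s t : C ⧸ Subgroup.zpowers zc, s * t ≠ t * s := by
    refine ⟨QuotientGroup.mk a, QuotientGroup.mk b, fun h => ?_⟩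
    rw [← QuotientGroup.mk_mul, ← QuotientGroup.mk_mul, QuotientGroup.eq] at h
    obtain ⟨i, hi⟩ := h
    change zc ^ i = (a * b)⁻¹ * (b * a) at hi
    have h1 : (a * b)⁻¹ * (b * a) = a⁻¹ * b⁻¹ * a := by
      rw [hab]
      group
    rw [h1] at hi
    have h2 : (a⁻¹ * b⁻¹ * a) ^ 17 = 1 := by
      rw [← hi, ← _root_.zpow_natCast, ← _root_.zpow_mul, mul_comm, _root_.zpow_mul, _root_.zpow_natCast, ← hzo,
        pow_orderOf_eq_one, _root_.one_zpow]
    have h3 : (a⁻¹ * b⁻¹ * a) ^ 3 = 1 := by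
      calc (a⁻¹ * b⁻¹ * a) ^ 3 = (a⁻¹ * b⁻¹ * a) * (a⁻¹ * b⁻¹ * a) * (a⁻¹ * b⁻¹ * a) := by rw [pow_succ, pow_two]
        _ = a⁻¹ * (b * b * b)⁻¹ * a := by group
        _ = 1 := by rw [hb3]; group
    have h4 : a⁻¹ * b⁻¹ * a = 1 := by
      have h5 : (a⁻¹ * b⁻¹ * a) ^ 18 = 1 := by
        rw [show 18 = 3 * 6 by norm_num, pow_mul, h3, one_pow]
      rwa [pow_succ, h2, one_mul] at h5
    apply hb1
    calc b = a * (a⁻¹ * b⁻¹ * a)⁻¹ * a⁻¹ := by group
      _ = 1 := by rw [h4]; group
  refine H733.OZ.classes_of (r := 17) (by norm_num) order17 (QuotientGroup.mk' (Subgroup.zpowers zc))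
    (QuotientGroup.mk'_surjective _) (fun k hk => ?_) (fun s t hst => H733.OZ.six_conj h6 hne hst) y y' hy hy' hyr hyy
  rw [QuotientGroup.mk'_apply, QuotientGroup.eq_one_iff] at hk
  obtain ⟨i, hi⟩ := hk
  exact ⟨i, congrArg Subtype.val hi⟩

end Cfsg.Agent.H890.OZ.SpT
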